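/-
HATA, small degrees: a standard subgroup with central quotient `A₅`, `A₆`, `A₇` and centre of even order
(interface for S3098, helper96).
-/
import Cfsg.Agent.HatA.Defs
import Cfsg.Agent.Grp.SylowIn
import Cfsg.Agent.Inv.ABG.MDefs

set_option autoImplicit false

namespace CL.HatA

open Subgroup CL.Grp

universe u

/-- The centraliser of the involution `z` has a normal subgroup `A` with Sylow 2-subgroup `⟨w, j⟩` quaternion of order
`4 h` (8 or 16); `S` is a Sylow 2-subgroup of `C(z)` and `S ∩ C(A) = ⟨r⟩`. -/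
structure Qd (G : Type*) [Group G] where
  z : G
  A : Subgroup G
  S : Subgroup G
  w : G
  j : G
  r : G
  h : ℕ
  hh : h = 2 ∨ h = 4
  zz : z * z = 1
  z1 : z ≠ 1
  wh : w ^ h = z
  jj : j * j = z
  jw : j * w * j⁻¹ = w⁻¹
  wA : w ∈ A
  jA : j ∈ A
  wS : w ∈ S
  jS : j ∈ S
  rS : r ∈ S
  rK : r ∈ centralizer (A : Set G)
  AC : A ≤ centralizer {z}
  norm : ∀ g ∈ centralizer ({z} : Set G), ∀ x ∈ A, g * x * g⁻¹ ∈ A
  syl : IsSylowIn 2 S (centralizer {z})
  memQ : ∀ x ∈ S, x ∈ A → ∃ i : ℤ, x = w ^ i ∨ x = w ^ i * j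
  winv : ∀ s ∈ S, ∃ m : ℤ, s * w * s⁻¹ = w ^ m
  memR : ∀ x ∈ S, x ∈ centralizer (A : Set G) → ∃ i : ℤ, x = r ^ i
  kf : ∀ s ∈ S, Commute s w → Commute s j → s ∈ centralizer (A : Set G)
  fus : ∀ x ∈ A, ∀ y ∈ A, x * x = z → y * y = z → ∃ c ∈ A, c * x * c⁻¹ = y

/-- The 2-structure of a perfect central extension of `A₅`, `A₆`, `A₇` with a central involution. -/
def SmAlt : Prop :=
  ∀ (H : Type u) [Group H] [Finite H] (z : H) (n : ℕ), 5 ≤ n → n ≤ 7 → Cfsg.IsQuasisimple H →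
    Nonempty (H ⧸ center H ≃* alternatingGroup (Fin n)) → z ∈ center H → orderOf z = 2 →
      (∀ x : H, x * x = 1 → x = 1 ∨ x = z) ∧ (∀ x y : H, x * x = z → y * y = z → IsConj x y) ∧
        ∀ P : Sylow 2 H, (Nat.card P = 8 ∨ Nat.card P = 16) ∧ ¬ IsMulCommutative P

/-- A 2-element normalising a quasisimple group with a unique involution and centralising one of its Sylow
2-subgroups centralises the group. -/
def SmKF : Prop :=
  ∀ (G : Type u) [Group G] [Finite G] (A Q : Subgroup G) (z s : G), Cfsg.IsQuasisimple A → z ∈ A → z ≠ 1 →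
    z * z = 1 → (∀ x ∈ A, x * x = 1 → x = 1 ∨ x = z) → IsSylowIn 2 Q A → ¬ IsMulCommutative Q →
    (∀ q ∈ Q, q ∈ centralizer (Q : Set G) → q = 1 ∨ q = z) → (∃ k : ℕ, s ^ 2 ^ k = 1) →
    s ∈ normalizer (A : Set G) → s ∈ centralizer (Q : Set G) → s ∈ centralizer (A : Set G)

/-- The local data. -/
def SmLoc : Prop :=
  ∀ (G : Type u) [Group G] [Finite G] (A : Subgroup G) (z : G) (n : ℕ), 5 ≤ n → n ≤ 7 → Cfsg.IsQuasisimple A →
    Nonempty (A ⧸ center A ≃* alternatingGroup (Fin n)) → orderOf z = 2 → z ∈ A → A ≤ centralizer {z} →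
    centralizer {z} ≤ normalizer (A : Set G) →
    (∀ R : Sylow 2 (centralizer (A : Set G)), IsCyclic (R : Subgroup (centralizer (A : Set G)))) →
      Nonempty (Qd G)

/-- The fusion argument. -/
def SmFus : Prop :=
  ∀ (G : Type u) [Group G] [Finite G] [IsSimpleGroup G], Qd G → CL.ABG.M.SDW G

/-- The groups with `n = 5` or `n = 6`. -/
def SmConcl (G : Type*) [Group G] (n : ℕ) : Prop :=
  (n = 5 ∧ ((∃ (F : Type) (_ : Field F) (_ : Fintype F), Fintype.card F = 5 ∧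
      Nonempty (G ≃* Matrix.ProjectiveSpecialLinearGroup (Fin 3) F)) ∨
    (∃ (F : Type) (_ : Field F) (_ : Fintype F), Fintype.card F = 25 ∧ Nonempty (G ≃* Cfsg.PSU 3 F 5)))) ∨
  (n = 6 ∧ ((∃ (F : Type) (_ : Field F) (_ : Fintype F), Fintype.card F = 9 ∧
      Nonempty (G ≃* Matrix.ProjectiveSpecialLinearGroup (Fin 3) F)) ∨
    (∃ (F : Type) (_ : Field F) (_ : Fintype F), Fintype.card F = 81 ∧ Nonempty (G ≃* Cfsg.PSU 3 F 9))))

/-- The identification. -/
def SmId : Prop :=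
  ∀ (G : Type u) [Group G] [Finite G] [IsSimpleGroup G] (A : Subgroup G) (z : G) (n : ℕ), CL.ABG.M.SDW G →
    5 ≤ n → n ≤ 7 → Cfsg.IsQuasisimple A → Nonempty (A ⧸ center A ≃* alternatingGroup (Fin n)) → orderOf z = 2 →
    A ≤ centralizer {z} → centralizer {z} ≤ normalizer (A : Set G) → SmConcl G n

end CL.HatA
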